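import Cfsg.Agent.Blocks.CyclicRank.Local
import Cfsg.Agent.Blocks.CyclicRank.GenData

/-!
# The rank of a block with cyclic defect group is the inertial index
-/

set_option autoImplicit false
set_option linter.unusedSectionVars false
set_option linter.style.haveILetI false

namespace CfsgLib.Blocks.CyclicRank

open Cfsg CfsgLib CfsgLib.Blocks CfsgLib.CharBasics CfsgLib.PairAlg CfsgLib.BrauerChar CfsgLib.Blocks.CyclicRankOne

attribute [local instance] residueField residue_charP

variable {p : ℕ} {M : Ideal AlgInt} {G : Type*} [Group G] [Fintype G]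

noncomputable local instance instFintypeSubgroupCyclicRankMain (K : Subgroup G) : Fintype K := Fintype.ofFinite K

noncomputable local instance instFintypeQuotCyclicRankMain {K : Type*} [Group K] [Finite K] (L : Subgroup K) :
    Fintype (K ⧸ L) := Fintype.ofFinite _

set_option maxHeartbeats 800000 in
/-- The rank of the block from the local block at the subgroup of order `p`. -/
theorem rank_of_local [Fact p.Prime] (hM : IsPModular p M) {B : Set (IrrCharacter G)} (hB : IsPBlock M B)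
    {P C T N : Subgroup G} {z : G} {e : ℕ} (hPD : IsDefectGroup p M B P) (hcyc : IsCyclic P) (hzP : z ∈ P)
    (hzo : orderOf z = p) (hN : N = Subgroup.normalizer (Subgroup.zpowers z : Set G))
    (hC : C = Subgroup.centralizer (Subgroup.zpowers z : Set G)) (hPC : P ≤ C) (hCT : C ≤ T) (hTN : T ≤ N)
    {f : Set (IrrCharacter C)} (hf : IsPBlock M f) {fR : MonoidAlgebra (Residue hM) G}
    (hfk' : ext' hM fR = inc C (eBar hM hf)) (hblkC : IsBlk C fR)
    (hblkconj : ∀ g ∈ N, IsBlk C (PairAlg.cj g fR))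
    (hTmem : ∀ g, g ∈ T ↔ g ∈ N ∧ PairAlg.cj g fR = fR)
    (hl : blockRank p f = 1) (hfD : IsDefectGroup p M f (P.subgroupOf C))
    (hof : fR * cut C (bG hM B) = fR) (hidx : C.relIndex T = e) (hdvd : e ∣ p - 1) :
    blockRank p B = e := by
  classical
  have hcC : ∀ x, x ∈ C ↔ x * z = z * x := fun x => by
    rw [hC, Subgroup.mem_centralizer_iff]
    refine ⟨fun h => (h z (Subgroup.mem_zpowers z)).symm, fun h y hy => ?_⟩
    obtain ⟨n, rfl⟩ := hy
    exact ((show Commute x z from h).zpow_right n).eq.symm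
  have hnC : ∀ g ∈ N, g ∈ Subgroup.normalizer (C : Set G) := fun g hg => by
    rw [hC]; exact le_normalizer_centralizer _ (hN ▸ hg)
  have hconjC : ∀ g ∈ N, ∀ x ∈ C, g * x * g⁻¹ ∈ C := fun g hg x hx =>
    (Subgroup.mem_normalizer_iff.1 (hnC g hg) x).1 hx
  -- a generator of the inertial quotient
  haveI hnC : (C.subgroupOf T).Normal :=
    Subgroup.normal_subgroupOf_of_le_normalizer fun u hu => hnC u (hTN hu)
  have hcardq : Nat.card (T ⧸ C.subgroupOf T) = e := by rw [← Subgroup.index_eq_card]; exact hidx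
  haveI : IsCyclic (T ⧸ C.subgroupOf T) := by
    let χ : T →* MulAut (Subgroup.zpowers z) :=
      (Subgroup.zpowers z).normalizerMonoidHom.comp (Subgroup.inclusion (hTN.trans hN.le))
    have hker : χ.ker = C.subgroupOf T := by
      refine Subgroup.ext fun g => ?_
      rw [MonoidHom.mem_ker, MonoidHom.comp_apply, ← MonoidHom.mem_ker, Subgroup.normalizerMonoidHom_ker,
        Subgroup.mem_subgroupOf, Subgroup.mem_subgroupOf, ← hC]
      rfl
    let ι : T ⧸ C.subgroupOf T →* MulAut (Subgroup.zpowers z) := QuotientGroup.lift _ χ hker.ge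
    have hι : Function.Injective ι := by
      rw [← MonoidHom.ker_eq_bot_iff, QuotientGroup.ker_lift, hker, QuotientGroup.map_mk'_self]
    have E : MulAut (Subgroup.zpowers z) ≃* (ZMod p)ˣ := by
      have e0 := IsCyclic.mulAutMulEquiv (G := Subgroup.zpowers z)
      rw [Nat.card_zpowers, hzo] at e0
      exact e0
    exact isCyclic_of_injective (E.toMonoidHom.comp ι) (E.injective.comp hι)
  obtain ⟨q, hq⟩ := IsCyclic.exists_generator (α := T ⧸ C.subgroupOf T)
  set t : G := ((q.out : T) : G) with ht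
  have htT : t ∈ T := (q.out : T).2
  have hqe : orderOf q = e := by rw [orderOf_eq_card_of_forall_mem_zpowers hq, hcardq]
  have hmkt : ∀ i : ℕ, ((q.out ^ i : T) : T ⧸ C.subgroupOf T) = q ^ i := fun i => by
    rw [QuotientGroup.mk_pow, QuotientGroup.out_eq']
  have hpowC : ∀ i : ℕ, t ^ i ∈ C ↔ e ∣ i := fun i => by
    rw [← hqe, orderOf_dvd_iff_pow_eq_one, ← hmkt, QuotientGroup.eq_one_iff, Subgroup.mem_subgroupOf,
      SubgroupClass.coe_pow]
  have he0 : e ≠ 0 := fun h => by
    rw [← hcardq] at h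
    exact Nat.card_pos.ne' h
  have hcover : ∀ τ ∈ T, ∃ i, i < e ∧ ∃ x ∈ C, τ = t ^ i * x := by
    intro τ hτ
    obtain ⟨i, hi, hiq⟩ : ∃ i < e, q ^ i = ((⟨τ, hτ⟩ : T) : T ⧸ C.subgroupOf T) := by
      have h := hq ((⟨τ, hτ⟩ : T) : T ⧸ C.subgroupOf T)
      rw [← mem_powers_iff_mem_zpowers] at h
      obtain ⟨i, hi⟩ := h
      exact ⟨i % e, Nat.mod_lt _ (Nat.pos_of_ne_zero he0), by rw [← hi, ← hqe, pow_mod_orderOf]⟩
    refine ⟨i, hi, (t ^ i)⁻¹ * τ, ?_, by rw [mul_inv_cancel_left]⟩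
    have := QuotientGroup.eq.1 ((hmkt i).trans hiq)
    rw [Subgroup.mem_subgroupOf] at this
    simpa using this
  have he0k : ((e : ℕ) : RF hM) ≠ 0 := natCast_ne_zero hM fun h => by
    have h2 := hM.1.two_le
    have := Nat.le_of_dvd (by omega) (h.trans hdvd)
    omega
  -- the idempotents
  set fk := ext' hM fR with hfk
  have hcjT : ∀ τ ∈ T, PairAlg.cj τ fk = fk := fun τ hτ => by
    rw [hfk, ← ext'_cj, ((hTmem τ).1 hτ).2]
  have hfT : ∀ τ ∈ T, el τ * fk = fk * el τ := fun τ hτ => by rw [el_mul_cj, hcjT τ hτ]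
  have horth : ∀ g ∈ N, g ∉ T → fk * el g * fk = 0 := by
    intro g hg hgT
    have h1 : fR * PairAlg.cj g fR = 0 :=
      (hblkC.eq_or_mul_eq_zero (hblkconj g hg)).resolve_right fun h => hgT ((hTmem g).2 ⟨hg, h.symm⟩)
    rw [mul_assoc, el_mul_cj, ← mul_assoc, hfk, ← ext'_cj, ← map_mul, h1, map_zero, zero_mul]
  -- the corner
  have hPcyc : IsCyclic (P.subgroupOf C) :=
    isCyclic_of_surjective _ (Subgroup.subgroupOfEquivOfLe hPC).symm.surjective
  obtain ⟨S₀, u, a, g, hu, hau, hasum, hg, hgJ⟩ := exists_gen_data hM hf hfD hPcyc hl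
  obtain ⟨Cr, hCrC, hCrf⟩ := exists_cor (eBar_comm hM hf) (eBar_idem hM hf).eq S₀ hg hgJ
  obtain ⟨S, hSC, hST, hSe, hSt, hSf, hSy⟩ := Cr.exists_loc T t e (hCrC ▸ hCT) htT
    (by
      rw [hCrC]
      intro x
      refine ⟨hconjC t (hTN htT) x, fun h => ?_⟩
      have := hconjC t⁻¹ (Subgroup.inv_mem _ (hTN htT)) _ h
      simpa [mul_assoc] using this)
    (by rw [hCrC]; exact hcover) (by rw [hCrC]; exact hpowC) he0k
    (by rw [hCrf, ← hfk']; exact hfT t htT)
  rw [hCrC] at hSC
  rw [hCrf, ← hfk'] at hSf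
  set aG := inc C a with haG
  set w : MonoidAlgebra (RF hM) G := ((e : ℕ) : RF hM)⁻¹ • (fk * aG) with hw
  have hzp : Subgroup.zpowers z ≤ P := Subgroup.zpowers_le.2 hzP
  have huP : ∀ d ∈ P, ∃ n : ℕ, d = ((u ^ n : C) : G) := fun d hd => by
    have h : (⟨d, hPC hd⟩ : C) ∈ P.subgroupOf C := hd
    rw [hu, ← mem_powers_iff_mem_zpowers] at h
    obtain ⟨n, hn⟩ := h
    exact ⟨n, congrArg Subtype.val hn.symm⟩
  have hfkC : ∀ x, Supp C x → fk * x = x * fk := fun x hx => by
    obtain ⟨b, rfl⟩ := exists_inc hx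
    rw [hfk', ← map_mul, ← map_mul, (eBar_comm hM hf b).eq]
  have haD : ∀ d ∈ P, el d * w = w * el d := fun d hd => by
    obtain ⟨n, rfl⟩ := huP d hd
    have h1 : el ((u ^ n : C) : G) * aG = aG * el ((u ^ n : C) : G) := by
      rw [haG, ← inc_el, ← map_mul, ← map_mul]
      congr 1
      rw [show (el (u ^ n) : MonoidAlgebra (RF hM) C) = el u ^ n by
        rw [MonoidAlgebra.single_pow, one_pow]]
      exact (hau.pow_right n).eq.symm
    rw [hw, mul_smul_comm, smul_mul_assoc, ← mul_assoc, ← hfkC _ (supp_el (u ^ n).2), mul_assoc, h1, mul_assoc]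
  have hD : P ≤ T := hPC.trans hCT
  have hwsum : ∑ r : T ⧸ P.subgroupOf T, el (r.out : G) * w * el (r.out : G)⁻¹ = fk := by
    have hterm : ∀ (i : ℕ) (r : C ⧸ P.subgroupOf C), cj (t ^ i * (r.out : G)) w =
        ((e : ℕ) : RF hM)⁻¹ • cj (t ^ i) (fk * inc C (el r.out * a * el r.out⁻¹)) := fun i r => by
      rw [hw, cj_smul, ← cj_cj, map_mul, cj_eq (r.out : G) fk, hfT _ (hCT r.out.2), mul_assoc fk, el_mul,
        mul_inv_cancel, el_one, mul_one, cj_eq (r.out : G) aG, haG, map_mul (inc C), map_mul (inc C),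
        inc_el, inc_el, InvMemClass.coe_inv]
    let F : ↥(Finset.range e) × (C ⧸ P.subgroupOf C) → T ⧸ P.subgroupOf T := fun x =>
      ((⟨t ^ (x.1 : ℕ) * (x.2.out : G), T.mul_mem (T.pow_mem htT _) (hCT x.2.out.2)⟩ : T) : T ⧸ P.subgroupOf T)
    have hcjw : ∀ d ∈ P, cj d w = w := fun d hd => by
      rw [cj_eq, haD d hd, mul_assoc, el_mul, mul_inv_cancel, el_one, mul_one]
    have hF : Function.Bijective F := by
      refine ⟨fun ⟨i, r⟩ ⟨j, r'⟩ h => ?_, fun x => ?_⟩
      · have h1 := Subgroup.mem_subgroupOf.1 (QuotientGroup.eq.1 h)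
        simp only [Subgroup.coe_mul, InvMemClass.coe_inv, mul_inv_rev] at h1
        have hij : (i : ℕ) = j := by
          have h2 : (t ^ (i : ℕ))⁻¹ * t ^ (j : ℕ) ∈ C := by
            have := C.mul_mem (C.mul_mem r.out.2 (hPC h1)) (C.inv_mem r'.out.2)
            simpa [mul_assoc] using this
          have hi := Finset.mem_range.1 i.2
          have hj := Finset.mem_range.1 j.2
          have key : ∀ x y : ℕ, x ≤ y → y < e → (t ^ x)⁻¹ * t ^ y ∈ C → x = y := fun x y hxy hy h3 => by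
            have h4 : (t ^ x)⁻¹ * t ^ y = t ^ (y - x) := by
              rw [← inv_mul_cancel_left (t ^ x) (t ^ (y - x)), ← pow_add, Nat.add_sub_cancel' hxy]
            rw [h4, hpowC] at h3
            have := Nat.eq_zero_of_dvd_of_lt h3 (by omega)
            omega
          rcases le_total (i : ℕ) j with hle | hle
          · exact key _ _ hle hj h2
          · exact (key _ _ hle hi (by have := C.inv_mem h2; rwa [mul_inv_rev, inv_inv] at this)).symm
        obtain rfl : i = j := Subtype.ext hij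
        refine Prod.ext rfl ?_
        rw [← QuotientGroup.out_eq' r, ← QuotientGroup.out_eq' r']
        refine QuotientGroup.eq.2 (Subgroup.mem_subgroupOf.2 ?_)
        simpa [mul_assoc] using h1
      · obtain ⟨τ, rfl⟩ := QuotientGroup.mk_surjective x
        obtain ⟨i, hi, y, hy, hτ⟩ := hcover τ τ.2
        refine ⟨(⟨i, Finset.mem_range.2 hi⟩, ((⟨y, hy⟩ : C) : C ⧸ P.subgroupOf C)), ?_⟩
        obtain ⟨d, hd⟩ := QuotientGroup.mk_out_eq_mul (P.subgroupOf C) (⟨y, hy⟩ : C)
        refine QuotientGroup.eq.2 (Subgroup.mem_subgroupOf.2 ?_)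
        simp only [Subgroup.coe_mul, InvMemClass.coe_inv, hd, hτ, mul_inv_rev, mul_assoc, inv_mul_cancel_left,
          inv_mul_cancel, mul_one]
        exact P.inv_mem d.2
    have hout : ∀ x, cj ((F x).out : G) w = cj (t ^ (x.1 : ℕ) * (x.2.out : G)) w := fun x => by
      obtain ⟨d, hd⟩ := QuotientGroup.mk_out_eq_mul (P.subgroupOf T)
        (⟨t ^ (x.1 : ℕ) * (x.2.out : G), T.mul_mem (T.pow_mem htT _) (hCT x.2.out.2)⟩ : T)
      simp only [F, hd, Subgroup.coe_mul]
      rw [← cj_cj (_ * _), hcjw _ (Subgroup.mem_subgroupOf.1 d.2)]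
    simp only [← cj_eq]
    rw [← Equiv.sum_comp (Equiv.ofBijective F hF)]
    simp only [Equiv.ofBijective_apply, hout, hterm]
    rw [Fintype.sum_prod_type]
    simp only [← Finset.smul_sum, ← map_sum, ← Finset.mul_sum]
    rw [hasum, ← hfk']
    have hff : fk * fk = fk := by rw [hfk', ← map_mul, (eBar_idem hM hf).eq]
    simp only [hff, hcjT _ (T.pow_mem htT _)]
    rw [Finset.sum_const, Finset.card_univ, Fintype.card_coe, Finset.card_range,
      ← Nat.cast_smul_eq_nsmul (RF hM), smul_smul, inv_mul_cancel₀ he0k, one_smul]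
  have hzC : z ∈ C := hPC hzP
  have hzy : ∃ r, (el z - 1) * S.f = r * S.y := by
    have hnil : IsNilpotent (el z - 1 : MonoidAlgebra (RF hM) G) := by
      have hz1 : z ^ p = 1 := by
        have := pow_orderOf_eq_one z
        rwa [hzo] at this
      haveI : CharP (MonoidAlgebra (RF hM) G) p :=
        charP_of_injective_algebraMap (FaithfulSMul.algebraMap_injective (RF hM) _) p
      refine ⟨p, ?_⟩
      rw [sub_pow_char_of_commute p (Commute.one_right (el z : MonoidAlgebra (RF hM) G)), MonoidAlgebra.single_pow,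
        one_pow, one_pow, hz1, ← MonoidAlgebra.one_def, sub_self]
    have hsupp : Supp Cr.C (el z - 1 : MonoidAlgebra (RF hM) G) := by
      rw [hCrC]; exact (supp_el hzC).sub (supp_one C)
    obtain ⟨r, -, hr⟩ := Cr.nil_central hsupp (fun x hx => by
      rw [sub_mul, mul_sub, one_mul, mul_one]
      congr 1
      rw [el_mul_cj]
      congr 1
      refine MonoidAlgebra.ext (Finsupp.ext fun y => ?_)
      rw [coeff_cj]
      rw [hCrC] at hx
      by_cases hy : y ∈ C
      · rw [mul_assoc, (hcC y).1 hy, inv_mul_cancel_left]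
      · have h1 : x.coeff y = 0 := by_contra fun h => hy (hx y h)
        rw [h1]
        by_contra h
        have h2 := C.mul_mem (C.mul_mem hzC (hx _ h)) (C.inv_mem hzC)
        exact hy (by simpa [mul_assoc] using h2)) hnil
    refine ⟨r, ?_⟩
    rw [hSy, ← hr, hCrf, ← hfk', hSf]
  have hord : ∀ x, x ∈ P → x ≠ 1 → ∃ n : ℕ, x ^ n ∈ Subgroup.zpowers z ∧ x ^ n ≠ 1 := by
    intro x hx hx1
    obtain ⟨j, hj⟩ : ∃ j, orderOf x = p ^ j := by
      obtain ⟨j, hj⟩ := (IsPGroup.iff_orderOf.1 (isPGroup_of_isDefectGroup hPD)) ⟨x, hx⟩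
      exact ⟨j, by rw [← hj, ← Subgroup.orderOf_coe]⟩
    rcases j with _ | j
    · exact absurd (orderOf_eq_one_iff.1 (by rw [hj, pow_zero])) hx1
    refine ⟨p ^ j, mem_zpowers_of_pow_eq_one hcyc hzP hM.1.pos hzo (P.pow_mem hx _) ?_, fun h => ?_⟩
    · rw [← pow_mul, ← pow_succ, ← hj, pow_orderOf_eq_one]
    · have := orderOf_dvd_of_pow_eq_one h
      rw [hj] at this
      exact absurd (Nat.le_of_dvd (pow_pos hM.1.pos _) this)
        (not_le.2 (Nat.pow_lt_pow_right hM.1.one_lt (Nat.lt_succ_self j)))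
  have hinN : ∀ g : G, g⁻¹ * z * g ∈ P → g ∈ N := by
    intro g hg
    rw [hN]
    refine (Subgroup.inv_mem_iff _).1 (mem_normalizer_of_cm ?_)
    have h1 : g⁻¹ * z * g ∈ Subgroup.zpowers z :=
      mem_zpowers_of_pow_eq_one hcyc hzP hM.1.pos hzo hg (by
        rw [show g⁻¹ * z * g = g⁻¹ * z * g⁻¹⁻¹ by rw [inv_inv], conj_pow, ← hzo, pow_orderOf_eq_one, mul_one,
          mul_inv_cancel])
    refine Subgroup.eq_of_le_of_card_ge ?_ (card_cm _ _).ge
    rintro y hy
    rw [mem_cm, inv_inv] at hy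
    obtain ⟨n, hn⟩ := hy
    have hy' : y = (g⁻¹ * z * g⁻¹⁻¹) ^ n := by
      rw [conj_zpow, show z ^ n = _ from hn]; simp [mul_assoc]
    rw [hy', inv_inv]
    exact Subgroup.zpow_mem _ h1 n
  have hfree : ∀ (c d τ : G), d ∈ T → τ ∈ T → τ ≠ 1 → c⁻¹ * τ * c ∈ P → d⁻¹ * τ * d ∈ P → c ∈ N := by
    intro c d τ hd _ hτ1 hcτ hdτ
    obtain ⟨n, hn, hn1⟩ := hord _ hdτ (fun h => hτ1 (by
      have := congrArg (fun a => d * a * d⁻¹) h
      simpa [mul_assoc] using this))
    rw [show d⁻¹ * τ * d = d⁻¹ * τ * d⁻¹⁻¹ by rw [inv_inv], conj_pow, inv_inv] at hn hn1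
    have h2 : τ ^ n ∈ Subgroup.zpowers z := by
      have := (Subgroup.mem_normalizer_iff.1 (hN ▸ hTN hd) _).1 hn
      simpa [mul_assoc] using this
    have h3 : τ ^ n ≠ 1 := fun h => hn1 (by rw [h, mul_one, inv_mul_cancel])
    have h4 := mem_zpowers_of_prime_card (p := p) (by rw [Nat.card_zpowers, hzo])
      (g := (⟨τ ^ n, h2⟩ : Subgroup.zpowers z)) (g' := ⟨z, Subgroup.mem_zpowers z⟩)
      (fun h => h3 (congrArg Subtype.val h))
    obtain ⟨i, hi⟩ := h4
    refine hinN c ?_
    have hi' : (τ ^ n) ^ i = z := by simpa using congrArg Subtype.val hi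
    rw [← hi', show c⁻¹ * (τ ^ n) ^ i * c = ((c⁻¹ * τ * c⁻¹⁻¹) ^ n) ^ i by
      rw [conj_pow, conj_zpow, inv_inv], inv_inv]
    exact P.zpow_mem (P.pow_mem hcτ n) i
  have hNz : ∀ g ∈ N, g * z * g⁻¹ ∈ Subgroup.zpowers z := fun g hg =>
    (Subgroup.mem_normalizer_iff.1 (hN ▸ hg) z).1 (Subgroup.mem_zpowers z)
  let Gl : Glob S p :=
    { D := P, N := N, z := z, w := w, eB := eBar hM hB, hz := hzo
      DC := hSC.symm ▸ hPC, TN := hST.symm ▸ hTN, zD := hzP
      sw := by
        rw [hSC, hw]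
        refine Supp.smul _ (Supp.mul ?_ (supp_inc _))
        rw [hfk']; exact supp_inc _
      fw := by
        rw [hSf, hw, mul_smul_comm, ← mul_assoc, hfk', ← map_mul, (eBar_idem hM hf).eq]
      wD := haD
      wsum := by
        subst hST
        rw [hSf]
        exact hwsum
      free := by rw [hST]; exact hfree
      orth := by rw [hST, hSf]; exact horth
      fT := by rw [hST, hSf]; exact hfT
      hC := by rw [hSC]; exact hcC
      hN := hNz
      inN := hinN
      conjC := by rw [hSC]; exact hconjC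
      zy := hzy
      central := fun x => (eBar_comm hM hB x).eq
      eBidem := (eBar_idem hM hB).eq
      feB := by
        rw [hSf, hSC, hfk, ← ext'_bG hM hB, ← ext'_cut, ← map_mul]
        exact congrArg _ hof
      scal := fun x hx => scal_eBar hM hB x hx }
  rw [← hSe]
  exact blockRank_eq_e hB Gl rfl

/-- The rank of a block with nontrivial cyclic defect group is the inertial index. -/
theorem blockRank_eq_relIndex [Fact p.Prime] (hM : IsPModular p M) {B : Set (IrrCharacter G)} (hB : IsPBlock M B)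
    {P : Subgroup G} (hPD : IsDefectGroup p M B P) (hP1 : P ≠ ⊥) (hcyc : IsCyclic P)
    {c : Set (IrrCharacter (Subgroup.centralizer (P : Set G)))}
    (hc : IsInducedBlock M (Subgroup.centralizer (P : Set G)) c B) {T₀ : Subgroup G}
    (hT₀ : ∀ g : G, g ∈ T₀ ↔ (g ∈ Subgroup.normalizer (P : Set G) ∧
      StabilizesBlock (Subgroup.centralizer (P : Set G)) c g)) :
    blockRank p B = (Subgroup.centralizer (P : Set G)).relIndex T₀ := by
  obtain ⟨z, f, hzP, hzo, hPC, hf, hpair, hl, hfD, hof, hidx, hdvd⟩ := exists_local hM hB hPD hP1 hcyc hc hT₀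
  have hblk := hpair.blk
  rw [CH_top] at hblk
  refine rank_of_local hM hB hPD hcyc hzP hzo rfl rfl hPC (centralizer_le_stab hpair) inf_le_left hf
    (ext'_bc hM hf) hblk (fun g hg => ?_) (fun g => Iff.rfl) hl hfD hof.2.2 hidx hdvd
  have hpg := (hpair.cj g).blk
  rw [cm_of_mem_normalizer hg, CH_top] at hpg
  exact hpg

end CfsgLib.Blocks.CyclicRank
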