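import Cfsg.Agent.Blocks.CyclicRank.CorOf
import Cfsg.Agent.Blocks.CyclicRank.Simple
import Cfsg.Agent.Blocks.CyclicNilpotent

/-!
# The local data at the subgroup of order `p` of a cyclic defect group
-/

set_option autoImplicit false
set_option linter.unusedSectionVars false
set_option linter.style.haveILetI false

namespace CfsgLib.Blocks.CyclicRank

open Cfsg CfsgLib CfsgLib.Blocks CfsgLib.CharBasics CfsgLib.PairAlg CfsgLib.BrauerChar CfsgLib.Blocks.CyclicRankOne

attribute [local instance] residueField residue_charP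

variable {p : ℕ} {M : Ideal AlgInt} {G : Type*} [Group G] [Fintype G]

noncomputable local instance instFintypeSubgroupCyclicRankBuild (K : Subgroup G) : Fintype K := Fintype.ofFinite K

noncomputable local instance instFintypeQuotCyclicRankBuild {K : Type*} [Group K] [Finite K] (L : Subgroup K) :
    Fintype (K ⧸ L) := Fintype.ofFinite _

section Residue

variable (hM : IsPModular p M)

/-- The residue field at `M` inside the residue field at the place. -/
noncomputable def emb : Residue hM →+* RF hM :=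
  Ideal.Quotient.lift (localIdeal hM)
    ((res hM).comp
      { toFun := fun z => ⟨(z : ℂ), mem_plc hM z.2⟩
        map_one' := rfl
        map_mul' := fun _ _ => rfl
        map_zero' := rfl
        map_add' := fun _ _ => rfl })
    fun z hz => (res_eq_zero hM (z := ⟨(z : ℂ), mem_plc hM z.2⟩) z.2).2 ((mem_localIdeal hM).1 hz)

theorem emb_rd {c : ℂ} (h : MemLocalRing M c) : emb hM (rd hM c) = res hM ⟨c, mem_plc hM h⟩ := by
  rw [rd_mk hM h, emb, Ideal.Quotient.lift_mk]
  rfl

/-- Extension of scalars on the group algebra. -/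
noncomputable def ext' : MonoidAlgebra (Residue hM) G →+* MonoidAlgebra (RF hM) G :=
  MonoidAlgebra.mapRingHom G (emb hM)

theorem coeff_ext' (a : MonoidAlgebra (Residue hM) G) (g : G) : (ext' hM a).coeff g = emb hM (a.coeff g) :=
  MonoidAlgebra.coeff_mapRingHom _ _ _

theorem ext'_cj (g : G) (a : MonoidAlgebra (Residue hM) G) : ext' hM (cj g a) = cj g (ext' hM a) :=
  MonoidAlgebra.ext (Finsupp.ext fun x => by rw [coeff_ext', coeff_cj, coeff_cj, coeff_ext'])

theorem ext'_cut (S : Subgroup G) (a : MonoidAlgebra (Residue hM) G) : ext' hM (cut S a) = cut S (ext' hM a) := by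
  classical
  refine MonoidAlgebra.ext (Finsupp.ext fun x => ?_)
  rw [coeff_ext', coeff_cut, coeff_cut, coeff_ext', apply_ite (emb hM), map_zero]

theorem ext'_smul (c : Residue hM) (a : MonoidAlgebra (Residue hM) G) :
    ext' hM (c • a) = emb hM c • ext' hM a :=
  MonoidAlgebra.ext (Finsupp.ext fun x => by
    rw [coeff_ext', MonoidAlgebra.coeff_smul, MonoidAlgebra.coeff_smul, Finsupp.smul_apply, Finsupp.smul_apply,
      coeff_ext', smul_eq_mul, smul_eq_mul, map_mul])

theorem ext'_bG {B : Set (IrrCharacter G)} (hB : IsPBlock M B) : ext' hM (bG hM B) = eBar hM hB := by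
  refine MonoidAlgebra.ext (Finsupp.ext fun g => ?_)
  have h := coeff_up hM (MonoidHom.id G) id_injective (blockElt B) g
  rw [MonoidHom.id_apply, coeff_blockElt] at h
  rw [coeff_ext', bG, bl, h, emb_rd hM (memLocalRing_blockCoeff hM hB g), coeff_eBar]
  rfl

theorem ext'_bc {Q : Subgroup G} {f : Set (IrrCharacter (Subgroup.centralizer (Q : Set G)))} (hf : IsPBlock M f) :
    ext' hM (PairAlg.bc hM Q f) = inc _ (eBar hM hf) := by
  refine MonoidAlgebra.ext (Finsupp.ext fun g => ?_)
  rw [coeff_ext']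
  by_cases hg : g ∈ Subgroup.centralizer (Q : Set G)
  · have h := coeff_up hM (Subgroup.centralizer (Q : Set G)).subtype (Subgroup.subtype_injective _) (blockElt f) ⟨g, hg⟩
    rw [coeff_blockElt, Subgroup.subtype_apply] at h
    rw [PairAlg.bc, bl, show g = ((⟨g, hg⟩ : Subgroup.centralizer (Q : Set G)) : G) from rfl, h,
      emb_rd hM (memLocalRing_blockCoeff hM hf _), coeff_inc, coeff_eBar]
    rfl
  · have h1 : (inc _ (eBar hM hf)).coeff g = 0 := by_contra fun h => hg (supp_inc _ g h)
    rw [h1, PairAlg.bc, bl, coeff_up_of_notMem hM _ _ (by rwa [Subgroup.range_subtype]), map_zero]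

include hM in
/-- Central elements are scalars on a block up to nilpotent ones. -/
theorem scal_eBar [Fact p.Prime] {B : Set (IrrCharacter G)} (hB : IsPBlock M B) (x : MonoidAlgebra (RF hM) G)
    (hx : ∀ a, x * a = a * x) : ∃ c : RF hM, IsNilpotent (eBar hM hB * x - c • eBar hM hB) := by
  classical
  have hblk : IsBlk (⊤ : Subgroup G) (bG hM B) := by
    have := isBlk_bl hM (MonoidHom.id G) id_injective hB
    rwa [range_id] at this
  let K : ConjClasses G → MonoidAlgebra (Residue hM) G := fun C =>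
    TwoChar.coords.symm fun g => if ConjClasses.mk g = C then 1 else 0
  have hKc : ∀ C g, (K C).coeff g = if ConjClasses.mk g = C then 1 else 0 := fun C g =>
    congrFun (TwoChar.coords.apply_symm_apply _) g
  have hKcen : ∀ C, CenIn ⊤ (K C) := fun C => ⟨fun g _ => Subgroup.mem_top g, fix_of_coeff fun u _ g => by
    rw [hKc, hKc, ConjClasses.mk_eq_mk_iff_isConj.2 (isConj_iff.2 ⟨u⁻¹, by simp [mul_assoc]⟩ : IsConj (u * g * u⁻¹) g)]⟩
  choose c hc using fun C => hblk.scal (K C) (hKcen C)
  have hfix : Fix (⊤ : Subgroup G) x := fix_of_comm hx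
  have hxsum : x = ∑ C : ConjClasses G, x.coeff C.out • ext' hM (K C) := by
    refine MonoidAlgebra.ext (Finsupp.ext fun g => ?_)
    rw [MonoidAlgebra.coeff_sum, Finset.sum_apply']
    simp only [MonoidAlgebra.coeff_smul, Finsupp.smul_apply, coeff_ext', hKc, apply_ite (emb hM), map_one, map_zero,
      smul_eq_mul, mul_ite, mul_one, mul_zero, Finset.sum_ite_eq, Finset.mem_univ, if_true]
    obtain ⟨u, hu⟩ := isConj_iff.1 (ConjClasses.mk_eq_mk_iff_isConj.1
      (show ConjClasses.mk (ConjClasses.mk g).out = ConjClasses.mk g from Quot.out_eq _))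
    conv_lhs => rw [← hu, hfix.coeff (Subgroup.mem_top u)]
  refine ⟨∑ C : ConjClasses G, x.coeff C.out * emb hM (c C), ?_⟩
  have hterm : eBar hM hB * x - (∑ C : ConjClasses G, x.coeff C.out * emb hM (c C)) • eBar hM hB =
      ∑ C : ConjClasses G, x.coeff C.out • ext' hM (bG hM B * K C - c C • bG hM B) := by
    conv_lhs => arg 1; arg 2; rw [hxsum]
    rw [Finset.mul_sum, Finset.sum_smul, ← Finset.sum_sub_distrib]
    refine Finset.sum_congr rfl fun C _ => ?_
    rw [map_sub, map_mul, ext'_smul, ext'_bG, mul_smul_comm, smul_sub, smul_smul]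
  rw [hterm]
  refine Commute.isNilpotent_sum (fun C _ => ?_) fun C D _ _ => ?_
  · obtain ⟨n, hn⟩ := hc C
    exact ⟨n, by rw [smul_pow, ← map_pow (ext' hM), hn, map_zero, smul_zero]⟩
  · refine Commute.smul_left (Commute.smul_right ?_ _) _
    refine Commute.map ?_ (ext' hM)
    exact CenIn.comm ((hblk.cen.mul (hKcen C)).sub ⟨hblk.cen.1.smul _, hblk.cen.2.smul _⟩)
      (fun g _ => Subgroup.mem_top g)

end Residue

section Order

/-- A cyclic group has only one subgroup of order `p`. -/
theorem mem_zpowers_of_pow_eq_one {P : Subgroup G} (hcyc : IsCyclic P) {z x : G} (hz : z ∈ P) (hp : 0 < p)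
    (hzo : orderOf z = p) (hx : x ∈ P) (hxp : x ^ p = 1) : x ∈ Subgroup.zpowers z := by
  classical
  haveI := hcyc
  have hle : Subgroup.zpowers z ≤ P := Subgroup.zpowers_le.2 hz
  have h1 : (Finset.univ.filter fun a : P => (a : G) ∈ Subgroup.zpowers z) =
      Finset.univ.filter fun a : P => a ^ p = 1 := by
    refine Finset.eq_of_subset_of_card_le (fun a ha => ?_) ?_
    · refine Finset.mem_filter.2 ⟨Finset.mem_univ _, Subtype.ext ?_⟩
      obtain ⟨n, hn⟩ := (Finset.mem_filter.1 ha).2
      have hn' : z ^ n = (a : G) := hn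
      rw [SubgroupClass.coe_pow, ← hn', ← zpow_natCast, ← zpow_mul, mul_comm, zpow_mul, zpow_natCast, ← hzo,
        pow_orderOf_eq_one, one_zpow]
      rfl
    · refine (IsCyclic.card_pow_eq_one_le hp).trans ?_
      rw [← Fintype.card_subtype, ← Nat.card_eq_fintype_card]
      refine le_trans (le_of_eq ?_) (Nat.card_congr (Subgroup.subgroupOfEquivOfLe hle).toEquiv).symm.le
      rw [Nat.card_zpowers, hzo]
  have h2 : (⟨x, hx⟩ : P) ∈ Finset.univ.filter fun a : P => a ^ p = 1 :=
    Finset.mem_filter.2 ⟨Finset.mem_univ _, Subtype.ext (by rw [SubgroupClass.coe_pow]; exact hxp)⟩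
  rw [← h1] at h2
  exact (Finset.mem_filter.1 h2).2

end Order

/-- The blocks below the subgroup of order `p`. -/
theorem exists_local [Fact p.Prime] (hM : IsPModular p M) {B : Set (IrrCharacter G)} (hB : IsPBlock M B)
    {P : Subgroup G} (hPD : IsDefectGroup p M B P) (hP1 : P ≠ ⊥) (hcyc : IsCyclic P)
    {c : Set (IrrCharacter (Subgroup.centralizer (P : Set G)))}
    (hc : IsInducedBlock M (Subgroup.centralizer (P : Set G)) c B) {T : Subgroup G}
    (hT : ∀ g : G, g ∈ T ↔ (g ∈ Subgroup.normalizer (P : Set G) ∧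
      StabilizesBlock (Subgroup.centralizer (P : Set G)) c g)) :
    ∃ (z : G) (f : Set (IrrCharacter (Subgroup.centralizer (Subgroup.zpowers z : Set G)))),
      z ∈ P ∧ orderOf z = p ∧ P ≤ Subgroup.centralizer (Subgroup.zpowers z : Set G) ∧ IsPBlock M f ∧
      IsPair p ⊤ (Subgroup.zpowers z) (PairAlg.bc hM (Subgroup.zpowers z) f) ∧
      blockRank p f = 1 ∧ IsDefectGroup p M f (P.subgroupOf (Subgroup.centralizer (Subgroup.zpowers z : Set G))) ∧
      OfBlk p ⊤ (bG hM B) (Subgroup.zpowers z) (PairAlg.bc hM (Subgroup.zpowers z) f) ∧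
      (Subgroup.centralizer (Subgroup.zpowers z : Set G)).relIndex
          (PairAlg.stab (Subgroup.zpowers z) (PairAlg.bc hM (Subgroup.zpowers z) f)) =
        (Subgroup.centralizer (P : Set G)).relIndex T ∧
      (Subgroup.centralizer (P : Set G)).relIndex T ∣ p - 1 := by
  classical
  have hPp : IsPGroup p P := isPGroup_of_isDefectGroup hPD
  obtain ⟨w, hwo⟩ : ∃ w : P, orderOf w = p := by
    haveI : Nontrivial P := (Subgroup.nontrivial_iff_ne_bot P).2 hP1
    obtain ⟨j, hj, hjc⟩ := (hPp.nontrivial_iff_card).1 inferInstance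
    exact exists_prime_orderOf_dvd_card' p (hjc ▸ dvd_pow_self p hj.ne')
  have hzo : orderOf (w : G) = p := by rw [Subgroup.orderOf_coe, hwo]
  set Q := Subgroup.zpowers (w : G) with hQ
  have hQP : Q ≤ P := Subgroup.zpowers_le.2 w.2
  have hQ1 : Q ≠ ⊥ := fun h => (Fact.out : p.Prime).ne_one (by
    rw [← hzo, Subgroup.zpowers_eq_bot.1 h, orderOf_one])
  haveI := hcyc
  have hPab : ∀ x ∈ P, ∀ y ∈ P, x * y = y * x := fun x hx y hy => by
    letI := hcyc.commGroup
    exact congrArg Subtype.val (mul_comm (⟨x, hx⟩ : P) ⟨y, hy⟩)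
  have hPQ : P ≤ Subgroup.centralizer (Q : Set G) := fun a ha =>
    Subgroup.mem_centralizer_iff.2 fun q hq => (hPab a ha q (hQP hq)).symm
  have hmax := isMaximal_of_induced hM hPD hc
  have hcp := complete (G := G) hM
  have hpe := isPair_bc hM hmax.1.1
  obtain ⟨a, hle⟩ := CfsgLib.PairAlg.exists_below hcp hpe hQP
  obtain ⟨f, hQf, hfe⟩ := exists_bc hM (hle.isPair hpe)
  have hs := LE'.nstep hcp hpe hle (hPQ.trans (centralizer_le_normalizer _))
  rw [← hfe] at hs hle
  have hind := (isInducedBlockIn_iff hM hQP hPQ hmax.1.1).2 ((nstep_bc_iff hM hQf hmax.1.1).2 hs)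
  haveI : ((Subgroup.centralizer (P : Set G)).subgroupOf T).Normal :=
    Subgroup.normal_subgroupOf_of_le_normalizer fun u hu => le_normalizer_centralizer P ((hT u).1 hu).1
  obtain ⟨-, hdvd, -⟩ := Cfsg.Agent.S4633.result p M hM B hB P hPD hP1 hcyc c hc T hT
  have hT' : ∀ g : G, g ∈ PairAlg.stab Q (PairAlg.bc hM Q f) ↔ (g ∈ Subgroup.normalizer (Q : Set G) ∧
      StabilizesBlock (Subgroup.centralizer (Q : Set G)) f g) := fun g =>
    ⟨fun h => ⟨h.1, (stabilizesBlock_bc_iff hM hQf.2 h.1).2 h.2⟩,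
      fun h => ⟨h.1, (stabilizesBlock_bc_iff hM hQf.2 h.1).1 h.2⟩⟩
  obtain ⟨-, hidx, hl, -⟩ := cyclic_local_block hM hB hPD hP1 hcyc hc hT hQP hQ1 hind hT'
  have hm := isMax_bc hM hmax
  have hof := ofBlk_of_below hM hmax hle
  have hne : Br P (bl hM (Subgroup.centralizer (Q : Set G)).subtype f) ≠ 0 := fun h0 => by
    have h1 := hs.mul
    rw [show PairAlg.bc hM Q f = bl hM (Subgroup.centralizer (Q : Set G)).subtype f from rfl, h0, mul_zero] at h1
    exact hs.right.blk.ne h1.symm
  obtain ⟨D, hD, hPD'⟩ := exists_defectGroup_sub_ge hM hQf.2 hmax.1.1.1 hPQ hne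
  have hpair : IsBrauerPairOf p M B Q f := (isBrauerPairOf_iff_bc hM hB hQf).2 hof
  have hd := blockDefect_le_induced hM (isInducedBlock_of_pairOf hM hpair)
  have hDP : P.subgroupOf (Subgroup.centralizer (Q : Set G)) = D := Subgroup.eq_of_le_of_card_ge hPD' (by
    rw [card_defectGroup hM hQf.2 hD, Nat.card_congr (Subgroup.subgroupOfEquivOfLe hPQ).toEquiv,
      card_defectGroup hM hB hPD]
    exact Nat.pow_le_pow_right hM.1.pos hd)
  exact ⟨(w : G), f, w.2, hzo, hPQ, hQf.2, isPair_bc hM hQf, hl, hDP.symm ▸ hD, hof, hidx, hdvd⟩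

end CfsgLib.Blocks.CyclicRank
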